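import Cfsg.Agent.H648.Loc.Value
import Cfsg.Agent.H651.Two.Base
import Cfsg.Agent.S0886
import Cfsg.Agent.S0906
import Cfsg.Agent.S0908
import Cfsg.Agent.S0917
import Cfsg.Agent.H330.GowOne

/-!
# Three characters of a block from a local subgroup (helper810, task 2520)

* `NNd p k M F` : some irreducible character `χ` with `∑ F g χ g / χ 1` not in the local ideal at `M` has a degree whose
  exponent of `p` is at most `k`;
* `block_step` : `H = C(P)`, `NNd p k M F|H`, `k + 2 ≤ v_p |H|`: there is a block `B` of `G` with at least three members,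
  all of them with `om F χ` not in the local ideal;
* `exists_ext` : extension of a character of a quotient of a normal subgroup with a cyclic factor group.
-/

set_option autoImplicit false

open Cfsg
open scoped ComplexConjugate

namespace Cfsg.Agent.H810.Dl

open Cfsg.Agent.Blocks.LocalRing
open Cfsg.Agent.Blocks
open Cfsg.Agent.H652.Four
open Cfsg.Agent.H648.Loc
open Cfsg.Agent.Characters.Core

universe u v

/-- `NN` with a bound for the degree. -/
def NNd {G : Type u} [Group G] (p k : ℕ) (M : Ideal AlgInt) (F : G → ℂ) : Prop :=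
  ∃ χ : IrrCharacter G, ¬ MemLocalIdeal M (om F (χ : G → ℂ)) ∧ (charDegree (χ : G → ℂ)).factorization p ≤ k

section

variable {G : Type u} [Group G] [Finite G] {p : ℕ} {M : Ideal AlgInt}

/-- the companions of an irreducible character of a local subgroup form a block -/
theorem companion_block (hM : IsPModular p M) {P H : Subgroup G} (hP : IsPGroup p P)
    (hPH : P ≤ H) (hCH : Subgroup.centralizer (P : Set G) ≤ H)
    (hHN : H ≤ Subgroup.normalizer (P : Set G)) (ξ : IrrCharacter H) :
    ∃ B : Set (IrrCharacter G), IsInducedBlock M H (blockOf M (ξ : H → ℂ)) B ∧ ∀ χ ∈ B, ∀ x : G,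
      MemLocalIdeal M (brauerCentralChar P H (ξ : H → ℂ) x - centralChar (χ : G → ℂ) x) := by
  have : Fact p.Prime := ⟨prime hM⟩
  have : M.IsPrime := isPrime hM
  have hb : IsPBlock M (blockOf M (ξ : H → ℂ)) := Basic.isPBlock_blockOf ξ
  obtain ⟨B, hB⟩ := Cfsg.Agent.S0919.result p M hM P H hP hPH hCH hHN _ hb
  have h := (Cfsg.Agent.S0918.result p M hM P H hP hPH hCH hHN _ hb B hB.2.1).1 hB
  exact ⟨B, hB, fun χ hχ => h ξ (Basic.mem_blockOf_self ξ) χ hχ⟩

omit [Finite G] in
/-- the central character at the part of `F` centralising `P`, for `H = C_G(P)` -/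
theorem om_brauer [Finite G] [Fintype (ConjClasses G)] {P : Subgroup G} {F : G → ℂ}
    (hF : ∀ g x : G, F (g * x * g⁻¹) = F x) (ξ : IrrCharacter (Subgroup.centralizer (P : Set G))) :
    om (fun h : Subgroup.centralizer (P : Set G) => F (h : G)) (ξ : Subgroup.centralizer (P : Set G) → ℂ) =
      ∑ C : ConjClasses G, F (Quotient.out C) *
        brauerCentralChar P (Subgroup.centralizer (P : Set G)) (ξ : Subgroup.centralizer (P : Set G) → ℂ)
          (Quotient.out C) := by
  classical
  have := Fintype.ofFinite G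
  have := Fintype.ofFinite (Subgroup.centralizer (P : Set G))
  have hb : ∀ x : G, brauerCentralChar P (Subgroup.centralizer (P : Set G)) (ξ : Subgroup.centralizer (P : Set G) → ℂ) x =
      (∑ h : Subgroup.centralizer (P : Set G), cl x (h : G) * (ξ : Subgroup.centralizer (P : Set G) → ℂ) h) / (ξ : Subgroup.centralizer (P : Set G) → ℂ) 1 := by
    intro x
    refine Eq.trans ?_ (CliffordCentral.inducedCentralChar_eq_sum
      (Subgroup.centralizer (P : Set G)) (ξ : Subgroup.centralizer (P : Set G) → ℂ) x)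
    rw [Basic.brauerCentralChar_def, Basic.inducedCentralChar_def]
    have : {h : Subgroup.centralizer (P : Set G) | IsConj x (h : G) ∧
        (h : G) ∈ Subgroup.centralizer (P : Set G)} =
        {h : Subgroup.centralizer (P : Set G) | IsConj x (h : G)} := by
      ext h
      simp only [Set.mem_ofPred_eq, h.2, and_true]
    rw [this]
  rw [om_eq]
  simp_rw [hb]
  have e : ∀ C : ConjClasses G, F (Quotient.out C) *
      ((∑ h : Subgroup.centralizer (P : Set G), cl (Quotient.out C) (h : G) * (ξ : Subgroup.centralizer (P : Set G) → ℂ) h) /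
        (ξ : Subgroup.centralizer (P : Set G) → ℂ) 1) =
      (∑ h : Subgroup.centralizer (P : Set G),
        F (Quotient.out C) * (cl (Quotient.out C) (h : G) * (ξ : Subgroup.centralizer (P : Set G) → ℂ) h)) / (ξ : Subgroup.centralizer (P : Set G) → ℂ) 1 := by
    intro C
    rw [← Finset.mul_sum, mul_div_assoc]
  rw [Finset.sum_congr rfl fun C _ => e C, ← Finset.sum_div, Finset.sum_comm]
  congr 1
  refine Finset.sum_congr rfl fun h _ => ?_
  rw [Finset.sum_eq_single (ConjClasses.mk (h : G))]
  · have hc : IsConj (Quotient.out (ConjClasses.mk (h : G))) (h : G) := by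
      rw [← ConjClasses.mk_eq_mk_iff_isConj]
      exact Quotient.out_eq (ConjClasses.mk (h : G))
    rw [cl_pos hc, one_mul]
    obtain ⟨c, hc⟩ := isConj_iff.1 hc
    congr 1
    conv_lhs => rw [← hc]
    exact hF _ _
  · intro C _ hC
    rw [cl_neg, zero_mul, mul_zero]
    intro hc
    apply hC
    rw [← ConjClasses.mk_eq_mk_iff_isConj] at hc
    rw [← hc]
    exact (Quotient.out_eq C).symm
  · intro h'
    exact absurd (Finset.mem_univ _) h'

/-- a defect group exists -/
theorem exists_defectGroup [hp : Fact p.Prime] (hM : IsPModular p M) {B : Set (IrrCharacter G)} (hB : IsPBlock M B) :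
    ∃ D : Subgroup G, IsDefectGroup p M B D := by
  obtain ⟨g, hg⟩ := Cfsg.Agent.S0906.result p M hM B hB
  exact ⟨_, g, hg, default, rfl⟩

/-- **The local step.** -/
theorem block_step (hM : IsPModular p M) {P : Subgroup G} (hP : IsPGroup p P)
    (hPC : P ≤ Subgroup.centralizer (P : Set G)) {F : G → ℂ}
    (hF : ∀ g x : G, F (g * x * g⁻¹) = F x) (hFR : ∀ g, MemLocalRing M (F g)) {k : ℕ}
    (hk : k + 2 ≤ (Nat.card (Subgroup.centralizer (P : Set G))).factorization p)
    (h : NNd p k M (fun h : Subgroup.centralizer (P : Set G) => F (h : G))) :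
    ∃ B : Set (IrrCharacter G), 3 ≤ Nat.card B ∧ (∀ χ ∈ B, ¬ MemLocalIdeal M (om F (χ : G → ℂ))) ∧
      ∃ χ ∈ B, (charDegree (χ : G → ℂ)).factorization p + 2 ≤ (Nat.card G).factorization p := by
  classical
  have hp : Fact p.Prime := ⟨prime hM⟩
  have hMp : M.IsPrime := isPrime hM
  have := Fintype.ofFinite (ConjClasses G)
  obtain ⟨ξ, hξ, hd⟩ := h
  obtain ⟨B, hB, hχ⟩ := companion_block hM hP hPC le_rfl (Subgroup.centralizer_le_normalizer _) ξ
  have hb : IsPBlock M (blockOf M (ξ : Subgroup.centralizer (P : Set G) → ℂ)) := Basic.isPBlock_blockOf ξ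
  obtain ⟨D, hD⟩ := exists_defectGroup hM hb
  obtain ⟨E, hE, hDE⟩ := Cfsg.Agent.S0917.result p M hM _ _ hb B hB.2.1 hB D hD
  have h1 := Cfsg.Agent.S0908.result p M hM _ hb D hD
  have h2 : 2 ≤ blockDefect p (blockOf M (ξ : Subgroup.centralizer (P : Set G) → ℂ)) := by
    have h3 : sInf ((fun χ : IrrCharacter (Subgroup.centralizer (P : Set G)) =>
        (charDegree (χ : Subgroup.centralizer (P : Set G) → ℂ)).factorization p) ''
          (blockOf M (ξ : Subgroup.centralizer (P : Set G) → ℂ))) ≤
        (charDegree (ξ : Subgroup.centralizer (P : Set G) → ℂ)).factorization p :=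
      Nat.sInf_le ⟨ξ, Basic.mem_blockOf_self ξ, rfl⟩
    unfold blockDefect
    omega
  have h4 : p ^ 2 ≤ Nat.card E := by
    calc p ^ 2 ≤ p ^ blockDefect p (blockOf M (ξ : Subgroup.centralizer (P : Set G) → ℂ)) :=
          Nat.pow_le_pow_right hp.out.pos h2
      _ = Nat.card D := h1.symm
      _ = Nat.card (D.map (Subgroup.centralizer (P : Set G)).subtype) :=
          (Subgroup.card_map_of_injective (Subgroup.subtype_injective _)).symm
      _ ≤ Nat.card E := Subgroup.card_le_of_le hDE
  have h5 : 3 ≤ Nat.card E := by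
    have h6 : 2 ^ 2 ≤ p ^ 2 := Nat.pow_le_pow_left hp.out.two_le 2
    omega
  refine ⟨B, H651.Two.three_le_card_block hM hB.2.1 hE h5, fun χ hχB h' => hξ ?_, ?_⟩
  · rw [om_brauer hF ξ]
    rw [om_eq_sum_classes χ.2 hF] at h'
    have h2 : MemLocalIdeal M (∑ C : ConjClasses G, F (Quotient.out C) *
        (brauerCentralChar P (Subgroup.centralizer (P : Set G)) (ξ : Subgroup.centralizer (P : Set G) → ℂ) (Quotient.out C) -
          centralChar (χ : G → ℂ) (Quotient.out C))) :=
      memLocalIdeal_sum hM _ _ fun C _ => memLocalIdeal_mul_left hM (hFR _) (hχ χ hχB _)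
    have h3 := memLocalIdeal_add hM h2 h'
    rw [← Finset.sum_add_distrib] at h3
    refine (congrArg _ (Finset.sum_congr rfl fun C _ => ?_)).mp h3
    ring
  · have h6 := Cfsg.Agent.S0908.result p M hM B hB.2.1 E hE
    have h7 : 2 ≤ blockDefect p B := by
      rw [h6] at h4
      exact (Nat.pow_le_pow_iff_right hp.out.one_lt).1 h4
    have hne : ((fun χ : IrrCharacter G => (charDegree (χ : G → ℂ)).factorization p) '' B).Nonempty :=
      (Basic.isPBlock_nonempty hB.2.1).image _
    obtain ⟨χ, hχB, hχ1⟩ := Nat.sInf_mem hne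
    refine ⟨χ, hχB, ?_⟩
    unfold blockDefect at h7
    have h8 : (charDegree (χ : G → ℂ)).factorization p =
        sInf ((fun χ : IrrCharacter G => (charDegree (χ : G → ℂ)).factorization p) '' B) := hχ1
    omega

/-- The local step for the class of `x`, where all elements of order `r` of `C(P)` are conjugate to `x`. -/
theorem block_cl (hM : IsPModular p M) {P : Subgroup G} (hP : IsPGroup p P)
    (hPC : P ≤ Subgroup.centralizer (P : Set G)) {x : G} {r : ℕ} (hx : orderOf x = r)
    (hc : ∀ y : G, y ∈ Subgroup.centralizer (P : Set G) → orderOf y = r → IsConj x y) {k : ℕ}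
    (hk : k + 2 ≤ (Nat.card (Subgroup.centralizer (P : Set G))).factorization p)
    (h : NNd p k M (ind (Subgroup.centralizer (P : Set G)) r)) :
    ∃ B : Set (IrrCharacter G), 3 ≤ Nat.card B ∧ (∀ χ ∈ B, ¬ MemLocalIdeal M (centralChar (χ : G → ℂ) x)) ∧
      ∃ χ ∈ B, (charDegree (χ : G → ℂ)).factorization p + 2 ≤ (Nat.card G).factorization p := by
  have e : (fun n : Subgroup.centralizer (P : Set G) => cl x (n : G)) =
      ind (Subgroup.centralizer (P : Set G)) r := by
    funext n
    by_cases hn : orderOf n = r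
    · rw [ind_pos hn, cl_pos (hc n n.2 (by rw [Subgroup.orderOf_coe]; exact hn))]
    · rw [ind_neg hn, cl_neg]
      intro hcc
      apply hn
      obtain ⟨c, hcc⟩ := isConj_iff.1 hcc
      rw [← Subgroup.orderOf_coe, ← hcc, ← hx]
      exact MulEquiv.orderOf_eq (MulAut.conj c) x
  rw [← e] at h
  obtain ⟨B, h1, h2, h3⟩ := block_step hM hP hPC (F := cl x) (fun g y => cl_conj x y g) (fun g => by
    by_cases hg : IsConj x g
    · rw [cl_pos hg]
      exact_mod_cast memLocalRing_natCast hM 1
    · rw [cl_neg hg]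
      exact_mod_cast memLocalRing_natCast hM 0) hk h
  refine ⟨B, h1, fun χ hχ => ?_, h3⟩
  have h4 := h2 χ hχ
  rwa [om_cl χ.2] at h4

end

/-! ### quotients and extensions -/

section

variable {G : Type u} [Group G] [Finite G] {p : ℕ} {M : Ideal AlgInt}

theorem charDegree_comp {Q : Type v} [Group Q] (φ : G →* Q) (χ : Q → ℂ) :
    charDegree (fun g => χ (φ g)) = charDegree χ := by
  unfold charDegree
  beta_reduce
  rw [map_one]

/-- the indicator function of the elements of order `r`, from a central quotient -/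
theorem om_ind_quot {p r : ℕ} {Q : Type v} [Group Q] {φ : G →* Q}
    (hφ : Function.Surjective φ) (hker : φ.ker ≤ Subgroup.center G) (hp : IsPGroup p φ.ker)
    (hr : r.Prime) (hpr : r.Coprime p) (χ : Q → ℂ) : om (ind G r) (fun g => χ (φ g)) = om (ind Q r) χ := by
  classical
  have := Fintype.ofFinite G
  have := Fintype.ofSurjective φ hφ
  rw [om_eq, om_eq]
  congr 1
  · rw [← Finset.sum_fiberwise (s := Finset.univ) (g := fun g : G => φ g)]
    refine Finset.sum_congr rfl fun q _ => ?_
    have hs : ∑ g ∈ Finset.univ.filter (fun g => φ g = q), ind G r g = ind Q r q := by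
      by_cases hq : orderOf q = r
      · rw [ind_pos hq]
        obtain ⟨g, hg, hgr⟩ := exists_lift hφ hp hr hpr hq
        rw [Finset.sum_eq_single g]
        · exact ind_pos hgr
        · intro g' hg' hne
          rw [Finset.mem_filter] at hg'
          refine ind_neg fun h' => hne ?_
          refine eq_of_map_eq hpr hker hp ?_ ?_ (hg'.2.trans hg.symm)
          · rw [← h']; exact pow_orderOf_eq_one _
          · rw [← hgr]; exact pow_orderOf_eq_one _
        · intro hn
          exact absurd ((Finset.mem_filter (p := fun g => φ g = q)).2 ⟨Finset.mem_univ _, hg⟩) hn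
      · rw [ind_neg hq]
        refine Finset.sum_eq_zero fun g hg => ind_neg fun hg' => hq ?_
        rw [Finset.mem_filter] at hg
        rw [← hg.2]
        have h1 : orderOf (φ g) ∣ r := by
          rw [← hg']
          exact orderOf_map_dvd φ g
        rcases (Nat.dvd_prime hr).1 h1 with h2 | h2
        · exfalso
          rw [orderOf_eq_one_iff] at h2
          have h3 : g ∈ φ.ker := h2
          obtain ⟨k, hk⟩ := hp ⟨g, h3⟩
          have hk' : g ^ p ^ k = 1 := by simpa using congrArg Subtype.val hk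
          have h4 := orderOf_dvd_of_pow_eq_one hk'
          rw [hg'] at h4
          have h5 := Nat.eq_one_of_dvd_coprimes (hpr.pow_right k) dvd_rfl h4
          exact hr.one_lt.ne' h5
        · exact h2
    rw [← hs, Finset.sum_mul]
    refine Finset.sum_congr rfl fun g hg => ?_
    rw [(Finset.mem_filter.1 hg).2]
  · rw [map_one]

/-- from a central quotient -/
theorem NNd_ind_quot {p q r k : ℕ} {Q : Type v} [Group Q] {φ : G →* Q}
    (hφ : Function.Surjective φ) (hker : φ.ker ≤ Subgroup.center G) (hp : IsPGroup p φ.ker)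
    (hr : r.Prime) (hpr : r.Coprime p) (h : NNd q k M (ind Q r)) : NNd q k M (ind G r) := by
  obtain ⟨χ, h1, h2⟩ := h
  refine ⟨⟨fun g => (χ : Q → ℂ) (φ g), CliffordCentral.isIrrCharacter_comp χ.2 φ hφ⟩, ?_, ?_⟩
  · show ¬ MemLocalIdeal M (om (ind G r) (fun g => (χ : Q → ℂ) (φ g)))
    rw [om_ind_quot hφ hker hp hr hpr]
    exact h1
  · show (charDegree (fun g => (χ : Q → ℂ) (φ g))).factorization q ≤ k
    rw [charDegree_comp]
    exact h2

/-- **Extension** of a character `χ₀ ∘ φ` of a normal subgroup `N` with cyclic factor group, where `χ₀` is the unique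
irreducible character of `p`-defect zero of `Q`. -/
theorem exists_ext {H : Type u} [Group H] [Finite H] (N : Subgroup H) [hN : N.Normal] {Q : Type v} [Group Q]
    [Finite Q] {p : ℕ} (φ : N →* Q) (hφ : Function.Surjective φ)
    (hker : ∀ (g : H) (n : N), φ n = 1 → φ ⟨g * n * g⁻¹, hN.conj_mem _ n.2 g⟩ = 1)
    (huniq : ∀ χ χ' : IrrCharacter Q, ¬ p ∣ Nat.card Q / charDegree (χ : Q → ℂ) →
      ¬ p ∣ Nat.card Q / charDegree (χ' : Q → ℂ) → χ = χ') (hcyc : IsCyclic (H ⧸ N)) (χ₀ : IrrCharacter Q)
    (h0 : ¬ p ∣ Nat.card Q / charDegree (χ₀ : Q → ℂ)) :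
    ∃ ξ : IrrCharacter H, ∀ n : N, (ξ : H → ℂ) n = (χ₀ : Q → ℂ) (φ n) := by
  have hinv : ∀ (g : H) (n : N), (χ₀ : Q → ℂ) (φ ⟨g * n * g⁻¹, hN.conj_mem _ n.2 g⟩) = (χ₀ : Q → ℂ) (φ n) := by
    intro g
    let c : N →* N := (MulAut.conjNormal g : MulAut N).toMonoidHom
    have hc : ∀ n : N, c n = ⟨g * n * g⁻¹, hN.conj_mem _ n.2 g⟩ := fun n => rfl
    have hcs : Function.Surjective c := (MulAut.conjNormal g : MulAut N).surjective
    let f : N →* Q := φ.comp c
    have hf : Function.Surjective f := hφ.comp hcs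
    have hk : φ.ker ≤ f.ker := by
      intro n hn
      rw [MonoidHom.mem_ker] at hn ⊢
      exact hker g n hn
    let α : Q →* Q := φ.liftOfSurjective hφ ⟨f, hk⟩
    have hα : ∀ n, α (φ n) = f n := fun n => φ.liftOfRightInverse_comp_apply _ _ ⟨f, hk⟩ n
    have hαs : Function.Surjective α := by
      intro q
      obtain ⟨n, hn⟩ := hf q
      exact ⟨φ n, by rw [hα, hn]⟩
    have h1 : (⟨fun q => (χ₀ : Q → ℂ) (α q), CliffordCentral.isIrrCharacter_comp χ₀.2 α hαs⟩ : IrrCharacter Q) = χ₀ := by
      refine huniq _ _ ?_ h0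
      show ¬ p ∣ Nat.card Q / charDegree (fun q => (χ₀ : Q → ℂ) (α q))
      rw [charDegree_comp]
      exact h0
    intro n
    have h2 := congrFun (congrArg (fun χ : IrrCharacter Q => (χ : Q → ℂ)) h1) (φ n)
    have h3 : (χ₀ : Q → ℂ) (α (φ n)) = (χ₀ : Q → ℂ) (φ n) := h2
    rw [hα] at h3
    exact h3
  obtain ⟨ξ, hξ, hres⟩ := Cfsg.Agent.S0886.result N hcyc (fun n => (χ₀ : Q → ℂ) (φ n))
    (CliffordCentral.isIrrCharacter_comp χ₀.2 φ hφ) hinv
  exact ⟨⟨ξ, hξ⟩, hres⟩

/-- `om` of a function supported in a subgroup to which the character restricts irreducibly -/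
theorem om_ind_sub {H : Type u} [Group H] [Finite H] (N : Subgroup H) {r : ℕ} (hN : ∀ g : H, orderOf g = r → g ∈ N)
    (ξ : H → ℂ) (θ : N → ℂ) (h : ∀ n : N, ξ n = θ n) : om (ind H r) ξ = om (ind N r) θ := by
  classical
  have := Fintype.ofFinite H
  have := Fintype.ofFinite N
  rw [om_eq, om_eq]
  have h1 : ξ 1 = θ 1 := h 1
  rw [h1]
  congr 1
  rw [← Finset.sum_filter_add_sum_filter_not Finset.univ (fun g => g ∈ N)]
  rw [Finset.sum_eq_zero (s := Finset.univ.filter (fun g => ¬ g ∈ N)), add_zero]
  · rw [Finset.sum_subtype (p := fun g => g ∈ N) _ (by simp)]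
    refine Finset.sum_congr rfl fun n _ => ?_
    rw [h n, ind_congr (g := (n : H)) (h := n) (Subgroup.orderOf_coe n)]
  · intro g hg
    rw [ind_neg (fun h' => (Finset.mem_filter.1 hg).2 (hN g h')), zero_mul]

end

end Cfsg.Agent.H810.Dl
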