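import Cfsg.Agent.H810.Dl.SectGrp
import Cfsg.Agent.H672.SC
import Cfsg.Agent.SuzukiRankOne.M1Average
import Cfsg.Agent.S0942
import Cfsg.Agent.Blocks.ExistsModular

/-!
# Two characters of degree divisible by `p` from the principal `ℓ`-block (helper810, task 2520)

`two_chars` : Let `h` have order `ℓ`, `ℓ²` not dividing `|G|`, let `x` of order `p` commute with `h`, `|C(x h)| ∣ p ℓ`, and let
`z` be an involution such that all involutions inverting `h` are conjugate to `z`, one of them commuting with `x`. If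
`|G|_p p` does not divide `|C(z)|²`, then there are a character of the principal `ℓ`-block and a character outside
of it with degrees divisible by `p` and with non-zero values at `h` and `h x`, respectively.
-/

set_option autoImplicit false

open Subgroup Cfsg

namespace Cfsg.Agent.H810.Sect

open Cfsg.Agent.Characters.Core Cfsg.Agent.H33

universe u

variable {G : Type u} [Group G] [Finite G]

local notation "conj" => starRingEnd ℂ

/-- the term of the class sum formula -/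
noncomputable def term (z y : G) (χ : IrrCharacter G) : ℂ :=
  (χ : G → ℂ) z * (χ : G → ℂ) z * conj ((χ : G → ℂ) y) / (χ : G → ℂ) 1

theorem exists_mul_integral {p : ℕ} (hp : p.Prime) (A : Finset (IrrCharacter G)) (z y : G)
    (h : ∀ χ ∈ A, (χ : G → ℂ) y ≠ 0 → ¬ p ∣ charDegree (χ : G → ℂ)) :
    ∃ m : ℕ, ¬ p ∣ m ∧ IsIntegral ℤ ((m : ℂ) * ∑ χ ∈ A, term z y χ) := by
  classical
  have hdeg : ∀ χ : IrrCharacter G, (χ : G → ℂ) 1 = (charDegree (χ : G → ℂ) : ℂ) := fun χ =>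
    Cfsg.Agent.Blocks.Basic.irr_one_eq_charDegree χ.2
  have hpos : ∀ χ : IrrCharacter G, charDegree (χ : G → ℂ) ≠ 0 := fun χ =>
    (Cfsg.Agent.Blocks.Basic.charDegree_pos χ.2).ne'
  let A' : Finset (IrrCharacter G) := A.filter fun χ : IrrCharacter G => (χ : G → ℂ) y ≠ 0
  refine ⟨∏ χ ∈ A', charDegree (χ : G → ℂ), ?_, ?_⟩
  · intro hd
    obtain ⟨χ, hχ, hχd⟩ := (Prime.dvd_finsetProd_iff hp.prime _).1 hd
    rw [Finset.mem_filter] at hχ
    exact h χ hχ.1 hχ.2 hχd
  · set m := ∏ χ ∈ A', charDegree (χ : G → ℂ) with hm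
    rw [Finset.mul_sum]
    apply IsIntegral.sum
    intro χ hχA
    by_cases hχy : (χ : G → ℂ) y = 0
    · have : term z y χ = 0 := by
        unfold term
        rw [hχy, map_zero, mul_zero, zero_div]
      rw [this, mul_zero]
      exact isIntegral_zero
    · have hχ' : χ ∈ A' := Finset.mem_filter.2 ⟨hχA, hχy⟩
      have hsplit : (m : ℂ) = (charDegree (χ : G → ℂ) : ℂ) *
          ∏ ψ ∈ A'.erase χ, (charDegree (ψ : G → ℂ) : ℂ) := by
        rw [hm]
        push_cast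
        rw [Finset.mul_prod_erase A' (fun ψ : IrrCharacter G => (charDegree (ψ : G → ℂ) : ℂ)) hχ']
      have hne : (charDegree (χ : G → ℂ) : ℂ) ≠ 0 := by exact_mod_cast hpos χ
      have : (m : ℂ) * term z y χ =
          (∏ ψ ∈ A'.erase χ, (charDegree (ψ : G → ℂ) : ℂ)) *
          ((χ : G → ℂ) z * (χ : G → ℂ) z * conj ((χ : G → ℂ) y)) := by
        unfold term
        rw [hdeg χ, hsplit]
        field_simp
      rw [this]
      have hχ : IsCharacter G (χ : G → ℂ) := by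
        obtain ⟨n, ρ, -, h3⟩ := χ.2
        exact ⟨n, ρ, h3⟩
      refine IsIntegral.mul ?_ (((Characters.GaloisBasic.isIntegral_apply hχ z).mul
        (Characters.GaloisBasic.isIntegral_apply hχ z)).mul ?_)
      · apply IsIntegral.prod
        intro ψ _
        have h3 : IsIntegral ℤ (algebraMap ℤ ℂ (charDegree (ψ : G → ℂ) : ℤ)) :=
          isIntegral_algebraMap
        simpa using h3
      · exact (Characters.GaloisBasic.isIntegral_apply hχ y).map
          ((Complex.conjAe : ℂ →ₐ[ℝ] ℂ).restrictScalars ℤ)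

theorem int_dvd {N : ℤ} {n : ℕ} (hn : n ≠ 0) (h : IsIntegral ℤ ((N : ℂ) / (n : ℂ))) : (n : ℤ) ∣ N := by
  rw [← Int.dvd_natAbs, Int.natCast_dvd_natCast]
  apply Cfsg.Agent.Characters.DegreeBounds.nat_dvd_of_isIntegral_div hn
  rcases Int.natAbs_eq N with h1 | h1
  · have h2 : ((N.natAbs : ℕ) : ℂ) = (N : ℂ) := by
      rw [← Int.cast_natCast, ← h1]
    rw [h2]
    exact h
  · have h2 : ((N.natAbs : ℕ) : ℂ) = -(N : ℂ) := by
      have h3 : (N.natAbs : ℤ) = -N := by omega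
      rw [← Int.cast_natCast, h3, Int.cast_neg]
    rw [h2, neg_div]
    exact h.neg

/-- the class sum formula -/
theorem sum_term [Fintype (IrrCharacter G)] {h z : G} (hzz : z * z = 1) (hz : ∀ a ∈ Inv h, IsConj z a) {k : G}
    (hk : h * k = k * h) (hcop : (orderOf h).Coprime (orderOf k)) :
    ∑ χ : IrrCharacter G, term z (h * k) χ =
      (num h k : ℂ) * (Nat.card (centralizer ({z} : Set G)) : ℂ) ^ 2 / (Nat.card G : ℂ) := by
  have h1 := Cfsg.Agent.Characters.ClassMul.card_class_mul z z (h * k)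
  rw [card_pairs hzz hz hk hcop] at h1
  have hc : (Nat.card (centralizer ({z} : Set G)) : ℂ) * ((centralizer ({z} : Set G)).index : ℂ) = (Nat.card G : ℂ) := by
    exact_mod_cast (centralizer ({z} : Set G)).card_mul_index
  have hG : (Nat.card G : ℂ) ≠ 0 := by exact_mod_cast Nat.card_pos.ne'
  rw [h1]
  have hG' := hG
  rw [← hc] at hG' ⊢
  have hca : (Nat.card (centralizer ({z} : Set G)) : ℂ) ≠ 0 := left_ne_zero_of_mul hG'
  have hia : ((centralizer ({z} : Set G)).index : ℂ) ≠ 0 := right_ne_zero_of_mul hG'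
  show ∑ χ : IrrCharacter G, (χ : G → ℂ) z * (χ : G → ℂ) z * conj ((χ : G → ℂ) (h * k)) / (χ : G → ℂ) 1 = _
  field_simp

/-- **Two characters.** -/
theorem two_chars {p l : ℕ} [hp : Fact p.Prime] [hl : Fact l.Prime] (hpl : p ≠ l) (hp2 : p ≠ 2) {x h t z : G}
    (hx : orderOf x = p) (hh : orderOf h = l) (hxh : h * x = x * h) (hl2 : ¬ l ^ 2 ∣ Nat.card G)
    (hcard : Nat.card (centralizer ({x * h} : Set G)) ∣ p * l) (ht : t ∈ Inv h) (htx : t * x = x * t) (hzz : z * z = 1)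
    (hz : ∀ a ∈ Inv h, IsConj z a) {k : ℕ} (hk : p ^ k ∣ Nat.card G)
    (hk' : ¬ p ^ (k + 1) ∣ Nat.card (centralizer ({z} : Set G)) ^ 2) :
    ∃ χ ψ : IrrCharacter G, χ ≠ ψ ∧ p ∣ charDegree (χ : G → ℂ) ∧ p ∣ charDegree (ψ : G → ℂ) ∧
      (χ : G → ℂ) h ≠ 0 ∧ (ψ : G → ℂ) (h * x) ≠ 0 := by
  classical
  have : Finite (IrrCharacter G) := finite_irr
  have : Fintype (IrrCharacter G) := Fintype.ofFinite _
  obtain ⟨M, hM⟩ := Cfsg.Agent.Blocks.Knorr.exists_isPModular l
  obtain ⟨hC, hsolv⟩ := cent hh hl2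
  set K := centralizerPPrimeCore l h with hKdef
  have hFK : Fintype (centralizerPPrimeCore l h) := Fintype.ofFinite _
  have hFK' : Fintype K := hFK
  have hhl : ∃ j : ℕ, orderOf h = l ^ j := ⟨1, by rw [hh, pow_one]⟩
  -- the numbers
  set c := Nat.card (centralizer ({z} : Set G)) with hc
  set n := Nat.card (Inv h) with hn
  have hpn : ¬ p ∣ n := not_dvd_card_inv hl.out hp2 hpl hx hh hxh hcard ht htx
  have hcopK : ∀ y ∈ K, (orderOf h).Coprime (orderOf y) := by
    intro y hy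
    rw [hh]
    exact (hC.cop.coprime_dvd_left (Subgroup.orderOf_dvd_natCard _ hy)).symm
  have hxl : ¬ l ∣ orderOf x := by
    rw [hx]
    intro hd
    exact hpl ((Nat.prime_dvd_prime_iff_eq hl.out hp.out).1 hd).symm
  have hxK : x ∈ K := hC.mem x hxh hxl
  have hpK : p ∣ Nat.card K := by
    rw [← hx]
    exact Subgroup.orderOf_dvd_natCard _ hxK
  have hdvd : p ^ (k + 1) ∣ l * Nat.card K * Nat.card G := by
    rw [pow_succ, mul_comm, mul_assoc]
    exact (Nat.mul_dvd_mul hpK hk).trans (dvd_mul_left _ _)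
  have hG0 : (Nat.card G : ℂ) ≠ 0 := by exact_mod_cast Nat.card_pos.ne'
  have hK0 : (Nat.card K : ℂ) ≠ 0 := by exact_mod_cast Nat.card_pos.ne'
  have hl0 : (l : ℂ) ≠ 0 := by exact_mod_cast hl.out.ne_zero
  -- the sums over the principal block and outside
  let B : Finset (IrrCharacter G) := Finset.univ.filter fun χ => χ ∈ principalBlock M G
  let B' : Finset (IrrCharacter G) := Finset.univ.filter fun χ => ¬ χ ∈ principalBlock M G
  have hsplit : ∀ y ∈ K, ∑ χ ∈ B, term z h χ + ∑ χ ∈ B', term z (h * y) χ =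
      (num h y : ℂ) * (c : ℂ) ^ 2 / (Nat.card G : ℂ) := by
    intro y hy
    rw [← sum_term hzz hz (hC.comm y hy) (hcopK y hy),
      ← Finset.sum_filter_add_sum_filter_not Finset.univ (fun χ : IrrCharacter G => χ ∈ principalBlock M G)]
    congr 1
    refine Finset.sum_congr rfl fun χ hχ => ?_
    have h1 := Cfsg.Agent.S0942.result l M hM h hhl y hy χ (Finset.mem_filter.1 hχ).2
    unfold term
    rw [h1]
  have hzero : ∑ y : K, ∑ χ ∈ B', term z (h * (y : G)) χ = 0 := by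
    rw [Finset.sum_comm]
    refine Finset.sum_eq_zero fun χ hχ => ?_
    have h1 := Cfsg.Agent.SuzukiRankOne.M1Average.sum_core_eq_zero hM h hhl hsolv χ (Finset.mem_filter.1 hχ).2
    have h2 : ∀ y : K, term z (h * (y : G)) χ =
        (χ : G → ℂ) z * (χ : G → ℂ) z / (χ : G → ℂ) 1 * conj ((χ : G → ℂ) (h * (y : G))) := fun y => by
      unfold term
      ring
    rw [Finset.sum_congr rfl fun y _ => h2 y, ← Finset.mul_sum, ← map_sum]
    have h3 : ∑ y : K, (χ : G → ℂ) (h * (y : G)) = 0 := h1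
    rw [h3, map_zero, mul_zero]
  have hS0 : ∑ χ ∈ B, term z h χ = (n : ℂ) ^ 2 * (c : ℂ) ^ 2 / ((l : ℂ) * (Nat.card K : ℂ) * (Nat.card G : ℂ)) := by
    have h1 : ∑ y : K, (∑ χ ∈ B, term z h χ + ∑ χ ∈ B', term z (h * (y : G)) χ) =
        ∑ y : K, (num h (y : G) : ℂ) * (c : ℂ) ^ 2 / (Nat.card G : ℂ) :=
      Finset.sum_congr rfl fun y _ => hsplit y y.2
    rw [Finset.sum_add_distrib, hzero, add_zero, Finset.sum_const, Finset.card_univ, ← Nat.card_eq_fintype_card,
      nsmul_eq_mul, ← Finset.sum_div, ← Finset.sum_mul] at h1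
    have h2 := sum_num hh hC
    have h3 : (l : ℂ) * ∑ y : K, (num h (y : G) : ℂ) = (n : ℂ) ^ 2 := by exact_mod_cast h2
    rw [← h3]
    have h4 : ∑ χ ∈ B, term z h χ = (∑ y : K, (num h (y : G) : ℂ)) * (c : ℂ) ^ 2 / (Nat.card G : ℂ) / (Nat.card K : ℂ) := by
      rw [← h1]
      field_simp
    rw [h4]
    field_simp
  -- the first character
  obtain ⟨χ, hχB, hχ0, hχp⟩ : ∃ χ ∈ B, (χ : G → ℂ) h ≠ 0 ∧ p ∣ charDegree (χ : G → ℂ) := by
    by_contra hcon
    push Not at hcon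
    obtain ⟨m, hm, hmi⟩ := exists_mul_integral hp.out B z h hcon
    rw [hS0] at hmi
    have h1 : ((m * (n ^ 2 * c ^ 2) : ℕ) : ℂ) / ((l * Nat.card K * Nat.card G : ℕ) : ℂ) =
        (m : ℂ) * ((n : ℂ) ^ 2 * (c : ℂ) ^ 2 / ((l : ℂ) * (Nat.card K : ℂ) * (Nat.card G : ℂ))) := by
      push_cast
      rw [mul_div_assoc]
    rw [← h1] at hmi
    have h2 := Cfsg.Agent.Characters.DegreeBounds.nat_dvd_of_isIntegral_div
      (Nat.mul_ne_zero (Nat.mul_ne_zero hl.out.ne_zero Nat.card_pos.ne') Nat.card_pos.ne') hmi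
    have h3 := hdvd.trans h2
    have h4 : (p ^ (k + 1)).Coprime m := Nat.Coprime.pow_left _ ((Nat.Prime.coprime_iff_not_dvd hp.out).2 hm)
    have h5 : (p ^ (k + 1)).Coprime (n ^ 2) :=
      Nat.Coprime.pow _ _ ((Nat.Prime.coprime_iff_not_dvd hp.out).2 hpn)
    exact hk' (h5.dvd_of_dvd_mul_left (h4.dvd_of_dvd_mul_left h3))
  -- the second character
  obtain ⟨ψ, hψB, hψ0, hψp⟩ : ∃ ψ ∈ B', (ψ : G → ℂ) (h * x) ≠ 0 ∧ p ∣ charDegree (ψ : G → ℂ) := by
    by_contra hcon
    push Not at hcon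
    obtain ⟨m, hm, hmi⟩ := exists_mul_integral hp.out B' z (h * x) hcon
    have h0 := hsplit x hxK
    have h1 : (((m : ℤ) * ((c : ℤ) ^ 2 * ((num h x : ℤ) * l * Nat.card K - (n : ℤ) ^ 2)) : ℤ) : ℂ) /
        ((l * Nat.card K * Nat.card G : ℕ) : ℂ) = (m : ℂ) * ∑ χ ∈ B', term z (h * x) χ := by
      have h2 : ∑ χ ∈ B', term z (h * x) χ = (num h x : ℂ) * (c : ℂ) ^ 2 / (Nat.card G : ℂ) -
          (n : ℂ) ^ 2 * (c : ℂ) ^ 2 / ((l : ℂ) * (Nat.card K : ℂ) * (Nat.card G : ℂ)) := by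
        rw [← h0, hS0]
        ring
      rw [h2]
      push_cast
      field_simp
    rw [← h1] at hmi
    have h2 := int_dvd (Nat.mul_ne_zero (Nat.mul_ne_zero hl.out.ne_zero Nat.card_pos.ne') Nat.card_pos.ne') hmi
    have h3 : ((p ^ (k + 1) : ℕ) : ℤ) ∣ (m : ℤ) * ((c : ℤ) ^ 2 * ((num h x : ℤ) * l * Nat.card K - (n : ℤ) ^ 2)) :=
      (Int.natCast_dvd_natCast.2 hdvd).trans h2
    have h4 : IsCoprime ((p ^ (k + 1) : ℕ) : ℤ) (m : ℤ) := by
      rw [Nat.isCoprime_iff_coprime]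
      exact Nat.Coprime.pow_left _ ((Nat.Prime.coprime_iff_not_dvd hp.out).2 hm)
    have h5 : IsCoprime ((p ^ (k + 1) : ℕ) : ℤ) ((num h x : ℤ) * l * Nat.card K - (n : ℤ) ^ 2) := by
      push_cast
      apply IsCoprime.pow_left
      rw [(Nat.prime_iff_prime_int.1 hp.out).coprime_iff_not_dvd]
      intro hd
      apply hpn
      have h6 : (p : ℤ) ∣ (num h x : ℤ) * l * Nat.card K := (Int.natCast_dvd_natCast.2 hpK).trans (dvd_mul_left _ _)
      have h7 : (p : ℤ) ∣ (n : ℤ) ^ 2 := by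
        have := dvd_sub h6 hd
        simpa using this
      exact Int.natCast_dvd_natCast.1 ((Nat.prime_iff_prime_int.1 hp.out).dvd_of_dvd_pow h7)
    have h6 := h5.dvd_of_dvd_mul_right (h4.dvd_of_dvd_mul_left h3)
    apply hk'
    exact_mod_cast h6
  refine ⟨χ, ψ, fun he => ?_, hχp, hψp, hχ0, hψ0⟩
  rw [he] at hχB
  exact (Finset.mem_filter.1 hψB).2 (Finset.mem_filter.1 hχB).2

end Cfsg.Agent.H810.Sect
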