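import Mathlib
import Cfsg.Prelude.Def_Local
import Cfsg.Agent.Lib.Cores
import Cfsg.Agent.Lib.PSolvable

/-!
# Centralizers of elements of order `ℓ`, `ℓ²` not dividing `|G|` (helper810, task 2520)

`C(h) = ⟨h⟩ × K`, `K = O_{ℓ'}(C(h))` (Burnside), and the number of involutions inverting `h`.
-/

set_option autoImplicit false

open Subgroup Cfsg

namespace Cfsg.Agent.H810.Sect

universe u

section core

variable {C : Type u} [Group C] [Finite C] {l : ℕ}

/-- a central subgroup of order `ℓ`, where `ℓ²` does not divide the order, is a direct factor -/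
theorem card_core [hl : Fact l.Prime] {h : C} (hh : orderOf h = l) (hc : h ∈ center C)
    (h2 : ¬ l ^ 2 ∣ Nat.card C) : l * Nat.card (pPrimeCore l C) = Nat.card C := by
  classical
  have hZ : IsPGroup l (zpowers h) := IsPGroup.of_card (n := 1) (by rw [Nat.card_zpowers, hh, pow_one])
  obtain ⟨P, hP⟩ := hZ.exists_le_sylow
  have hPl : Nat.card (P : Subgroup C) ∣ l := by
    obtain ⟨n, hn⟩ := P.2.exists_card_eq
    have h3 : n < 2 := by
      by_contra hcon
      push Not at hcon
      apply h2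
      have h4 : l ^ n ∣ Nat.card C := by
        rw [← hn]
        exact card_subgroup_dvd_card _
      exact (pow_dvd_pow l hcon).trans h4
    have h5 : Nat.card (P : Subgroup C) = l ^ n := hn
    rw [h5]
    interval_cases n
    · simp
    · simp
  have hPc : Nat.card (P : Subgroup C) = l := by
    refine Nat.dvd_antisymm hPl ?_
    have h3 := card_dvd_of_le hP
    rwa [Nat.card_zpowers, hh] at h3
  have hPe : zpowers h = (P : Subgroup C) := by
    refine eq_of_le_of_card_ge hP ?_
    rw [hPc, Nat.card_zpowers, hh]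
  have hPZ : (P : Subgroup C) ≤ center C := by
    rw [← hPe, zpowers_le]
    exact hc
  have hN : normalizer (P : Set C) ≤ centralizer (P : Set C) := by
    intro g _
    rw [mem_centralizer_iff]
    intro y hy
    exact ((mem_center_iff.1 (hPZ hy)) g).symm
  have hcomp := MonoidHom.ker_transferSylow_isComplement' P hN
  set N := (MonoidHom.transferSylow P hN).ker with hNdef
  have h6 : Nat.card N * l = Nat.card C := by
    rw [← hPc]
    exact hcomp.card_mul_card
  have hNl : ¬ l ∣ Nat.card N := by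
    intro hd
    apply h2
    rw [← h6, pow_two]
    exact Nat.mul_dvd_mul hd dvd_rfl
  have hcop := Lib.Cores.pPrimeCore_coprime (G := C) l
  have hle : N ≤ pPrimeCore l C :=
    Lib.Cores.le_pPrimeCore inferInstance ((Nat.Prime.coprime_iff_not_dvd hl.out).2 hNl).symm
  obtain ⟨j, hj⟩ := card_dvd_of_le hle
  have h7 : Nat.card (pPrimeCore l C) ∣ Nat.card C := card_subgroup_dvd_card _
  rw [← h6, hj] at h7
  have hNpos : 0 < Nat.card N := Nat.card_pos
  have h8 : j ∣ l := Nat.dvd_of_mul_dvd_mul_left hNpos h7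
  rcases (Nat.dvd_prime hl.out).1 h8 with h9 | h9
  · rw [hj, h9, mul_one, mul_comm]
    exact h6
  · exfalso
    rw [hj, h9] at hcop
    have h10 : l ∣ 1 := by
      have := Nat.Coprime.eq_one_of_dvd (Nat.Coprime.symm hcop) (dvd_mul_left l _)
      rw [this]
    exact hl.out.one_lt.not_ge (Nat.le_of_dvd one_pos h10)

/-- `C` is `ℓ`-solvable. -/
theorem solv [hl : Fact l.Prime] (h : l * Nat.card (pPrimeCore l C) = Nat.card C) : IsPSolvable l C := by
  have hN : (pPrimeCore l C).Normal := Lib.Cores.pPrimeCore_normal l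
  have hi : (pPrimeCore l C).index = l := by
    have h1 := (pPrimeCore l C).card_mul_index
    have h2 : 0 < Nat.card (pPrimeCore l C) := Nat.card_pos
    rw [← h, mul_comm l] at h1
    exact Nat.eq_of_mul_eq_mul_left h2 h1
  refine Lib.PSolvable.IsPSolvable_of_quotient l (pPrimeCore l C) (Or.inr ?_) ?_
  · exact Lib.Cores.pPrimeCore_coprime l
  · have hc : IsCyclic (C ⧸ pPrimeCore l C) := isCyclic_of_prime_card (p := l) hi
    let _ : CommGroup (C ⧸ pPrimeCore l C) := IsCyclic.commGroup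
    exact Lib.PSolvable.IsPSolvable_of_solvable l

/-- elements of order prime to `ℓ` lie in the core -/
theorem mem_core [hl : Fact l.Prime] (h : l * Nat.card (pPrimeCore l C) = Nat.card C) {x : C}
    (hx : ¬ l ∣ orderOf x) : x ∈ pPrimeCore l C := by
  have hN : (pPrimeCore l C).Normal := Lib.Cores.pPrimeCore_normal l
  have hi : (pPrimeCore l C).index = l := by
    have h1 := (pPrimeCore l C).card_mul_index
    have h2 : 0 < Nat.card (pPrimeCore l C) := Nat.card_pos
    rw [← h, mul_comm l] at h1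
    exact Nat.eq_of_mul_eq_mul_left h2 h1
  rw [← QuotientGroup.eq_one_iff, ← orderOf_eq_one_iff]
  have h3 : orderOf (QuotientGroup.mk x : C ⧸ pPrimeCore l C) ∣ l :=
    (_root_.orderOf_dvd_natCard _).trans (dvd_of_eq hi)
  have h4 : orderOf (QuotientGroup.mk x : C ⧸ pPrimeCore l C) ∣ orderOf x :=
    orderOf_map_dvd (QuotientGroup.mk' _) x
  rcases (Nat.dvd_prime hl.out).1 h3 with h5 | h5
  · exact h5
  · rw [h5] at h4
    exact absurd h4 hx

/-- every element is a product of a power of `h` and an element of the core -/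
theorem exists_mul {h : C} (hh : orderOf h = l)
    (hcard : l * Nat.card (pPrimeCore l C) = Nat.card C) (c : C) :
    ∃ y ∈ zpowers h, ∃ k ∈ pPrimeCore l C, c = y * k := by
  have hN : (pPrimeCore l C).Normal := Lib.Cores.pPrimeCore_normal l
  have hcop := Lib.Cores.pPrimeCore_coprime (G := C) l
  have h1 : zpowers h ⊔ pPrimeCore l C = ⊤ := by
    apply eq_top_of_card_eq
    refine Nat.dvd_antisymm (card_subgroup_dvd_card _) ?_
    rw [← hcard]
    refine Nat.Coprime.mul_dvd_of_dvd_of_dvd hcop.symm ?_ ?_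
    · have := card_dvd_of_le (le_sup_left : zpowers h ≤ zpowers h ⊔ pPrimeCore l C)
      rwa [Nat.card_zpowers, hh] at this
    · exact card_dvd_of_le (le_sup_right : pPrimeCore l C ≤ zpowers h ⊔ pPrimeCore l C)
  have h2 : c ∈ zpowers h ⊔ pPrimeCore l C := by rw [h1]; trivial
  obtain ⟨y, hy, k, hk, hyk⟩ := (mem_sup_of_normal_right (s := zpowers h)).1 h2
  exact ⟨y, hy, k, hk, hyk.symm⟩

end core

section

variable {G : Type u} [Group G] [Finite G] {l : ℕ} {h : G}

/-- the data of `C(h)` -/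
structure Cent (l : ℕ) (h : G) (K : Subgroup G) : Prop where
  comm : ∀ k ∈ K, h * k = k * h
  cop : (Nat.card K).Coprime l
  card : l * Nat.card K = Nat.card (centralizer ({h} : Set G))
  mem : ∀ x : G, h * x = x * h → ¬ l ∣ orderOf x → x ∈ K
  mul : ∀ c : G, h * c = c * h → ∃ y ∈ zpowers h, ∃ k ∈ K, c = y * k

theorem cent [hl : Fact l.Prime] (hh : orderOf h = l) (h2 : ¬ l ^ 2 ∣ Nat.card G) :
    Cent l h (centralizerPPrimeCore l h) ∧ IsPSolvable l (centralizer ({h} : Set G)) := by
  have hm : h ∈ centralizer ({h} : Set G) := mem_centralizer_singleton_iff.2 rfl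
  have hc : (⟨h, hm⟩ : centralizer ({h} : Set G)) ∈ center ↥(centralizer ({h} : Set G)) := by
    rw [mem_center_iff]
    intro g
    exact Subtype.ext (mem_centralizer_singleton_iff.1 g.2)
  have ho : orderOf (⟨h, hm⟩ : centralizer ({h} : Set G)) = l := by rw [← hh, ← Subgroup.orderOf_coe]
  have h3 : ¬ l ^ 2 ∣ Nat.card (centralizer ({h} : Set G)) := fun hd => h2 (hd.trans (card_subgroup_dvd_card _))
  have hcard := card_core ho hc h3
  have hK : Nat.card (centralizerPPrimeCore l h) = Nat.card (pPrimeCore l (centralizer ({h} : Set G))) :=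
    card_map_of_injective (subtype_injective _)
  refine ⟨⟨?_, ?_, ?_, ?_, ?_⟩, solv hcard⟩
  · rintro _ ⟨k, -, rfl⟩
    exact (mem_centralizer_singleton_iff.1 k.2).symm
  · rw [hK]
    exact Lib.Cores.pPrimeCore_coprime l
  · rw [hK]
    exact hcard
  · intro x hx hxl
    have hxm : x ∈ centralizer ({h} : Set G) := mem_centralizer_singleton_iff.2 hx.symm
    exact ⟨⟨x, hxm⟩, mem_core hcard (by rwa [← Subgroup.orderOf_coe]), rfl⟩
  · intro c hc'
    have hcm : c ∈ centralizer ({h} : Set G) := mem_centralizer_singleton_iff.2 hc'.symm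
    obtain ⟨y, hy, k, hk, hyk⟩ := exists_mul ho hcard ⟨c, hcm⟩
    refine ⟨y, ?_, k, ⟨k, hk, rfl⟩, congrArg Subtype.val hyk⟩
    obtain ⟨n, rfl⟩ := hy
    exact ⟨n, rfl⟩

/-- the elements `a` with `a² = 1` inverting `h` -/
def Inv (h : G) : Set G := {a | a * a = 1 ∧ a * h * a⁻¹ = h⁻¹}

omit [Finite G] in
theorem inv_zpow' {a : G} (ha : a ∈ Inv h) (n : ℤ) : a * h ^ n * a = (h ^ n)⁻¹ := by
  have h1 : a⁻¹ = a := inv_eq_of_mul_eq_one_left ha.1
  have h2 : a * h ^ n * a⁻¹ = (a * h * a⁻¹) ^ n := (conj_zpow ..).symm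
  rw [h1] at h2
  rw [h2]
  have h3 := ha.2
  rw [h1] at h3
  rw [h3, inv_zpow]

omit [Finite G] in
/-- the squares of `a y k`, `y` a power of `h` and `k` commuting with `h` -/
theorem sq_eq {a y k : G} (ha : a ∈ Inv h) (hy : y ∈ zpowers h) (hk : h * k = k * h) :
    (a * (y * k)) * (a * (y * k)) = (a * k) * (a * k) := by
  obtain ⟨n, rfl⟩ := hy
  have h1 := inv_zpow' ha n
  have h2 : h ^ n * k = k * h ^ n := ((show Commute h k from hk).zpow_left n).eq
  calc (a * (h ^ n * k)) * (a * (h ^ n * k)) = a * (k * h ^ n) * a * (h ^ n * k) := by rw [← h2]; group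
    _ = a * k * a * (a * h ^ n * a) * h ^ n * k := by
        have : a * a = 1 := ha.1
        calc a * (k * h ^ n) * a * (h ^ n * k) = a * k * (1 * (h ^ n * a)) * (h ^ n * k) := by group
          _ = a * k * ((a * a) * (h ^ n * a)) * (h ^ n * k) := by rw [this]
          _ = _ := by group
    _ = _ := by rw [h1]; group

omit [Finite G] in
/-- `a c` inverts `h` -/
theorem mul_mem_inv {a c : G} (ha : a ∈ Inv h) (hc : h * c = c * h) (h2 : (a * c) * (a * c) = 1) : a * c ∈ Inv h := by
  refine ⟨h2, ?_⟩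
  calc a * c * h * (a * c)⁻¹ = a * (c * h) * c⁻¹ * a⁻¹ := by group
    _ = a * h * a⁻¹ := by rw [← hc]; group
    _ = h⁻¹ := ha.2

omit [Finite G] in
/-- the product of two elements inverting `h` -/
theorem mul_comm_of_inv {a b : G} (ha : a ∈ Inv h) (hb : b ∈ Inv h) : h * (a⁻¹ * b) = (a⁻¹ * b) * h := by
  have h1 : b * h = h⁻¹ * b := by rw [← hb.2]; group
  have h2 : a * h = h⁻¹ * a := by rw [← ha.2]; group
  have h3 : a⁻¹ * h⁻¹ = h * a⁻¹ := by
    calc a⁻¹ * h⁻¹ = a⁻¹ * (h⁻¹ * a) * a⁻¹ := by group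
      _ = h * a⁻¹ := by rw [← h2]; group
  calc h * (a⁻¹ * b) = (h * a⁻¹) * b := by group
    _ = a⁻¹ * (h⁻¹ * b) := by rw [← h3]; group
    _ = (a⁻¹ * b) * h := by rw [← h1]; group

/-- the number of `a` inverting `h` with `(a k)² = 1` -/
noncomputable def num (h k : G) : ℕ := Nat.card {a : G // a ∈ Inv h ∧ (a * k) * (a * k) = 1}

/-- **The double count.** -/
theorem sum_num (hh : orderOf h = l) {K : Subgroup G} (hK : Cent l h K) [Fintype K] :
    l * ∑ k : K, num h (k : G) = Nat.card (Inv h) ^ 2 := by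
  classical
  have h1 : ∑ k : K, num h (k : G) =
      Nat.card (Σ k : K, {a : G // a ∈ Inv h ∧ (a * (k : G)) * (a * (k : G)) = 1}) := by
    rw [Nat.card_sigma]
    rfl
  have h2 : l = Nat.card (zpowers h) := by rw [Nat.card_zpowers, hh]
  rw [h1]
  conv_lhs => rw [h2]
  rw [← Nat.card_prod, pow_two, ← Nat.card_prod]
  refine Nat.card_congr (Equiv.ofBijective (fun q => (⟨q.2.2.1, q.2.2.2.1⟩,
    ⟨q.2.2.1 * ((q.1 : G) * (q.2.1 : G)), mul_mem_inv q.2.2.2.1 ?_ ?_⟩)) ?_)
  · obtain ⟨n, hn⟩ := q.1.2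
    have h3 : Commute h (q.2.1 : G) := hK.comm _ q.2.1.2
    have h4 : Commute h (q.1 : G) := by
      rw [← hn]
      exact (Commute.refl h).zpow_right n
    exact (h4.mul_right h3).eq
  · rw [sq_eq q.2.2.2.1 q.1.2 (hK.comm _ q.2.1.2)]
    exact q.2.2.2.2
  · constructor
    · rintro ⟨⟨y, hy⟩, ⟨k, hk⟩, ⟨a, ha⟩⟩ ⟨⟨y', hy'⟩, ⟨k', hk'⟩, ⟨a', ha'⟩⟩ heq
      simp only [Prod.mk.injEq, Subtype.mk.injEq] at heq
      obtain ⟨rfl, h3⟩ := heq
      have h4 : y * k = y' * k' := mul_left_cancel h3
      have h5 : y'⁻¹ * y = k' * k⁻¹ := by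
        calc y'⁻¹ * y = y'⁻¹ * (y * k) * k⁻¹ := by group
          _ = k' * k⁻¹ := by rw [h4]; group
      have h6 : y'⁻¹ * y ∈ zpowers h := mul_mem (inv_mem hy') hy
      have h7 : y'⁻¹ * y ∈ K := by rw [h5]; exact mul_mem hk' (inv_mem hk)
      have h8 : y'⁻¹ * y = 1 := by
        have h9 : orderOf (y'⁻¹ * y) ∣ l := by
          rw [h2]
          exact Subgroup.orderOf_dvd_natCard _ h6
        have h10 : orderOf (y'⁻¹ * y) ∣ Nat.card K := Subgroup.orderOf_dvd_natCard _ h7
        rw [← orderOf_eq_one_iff]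
        exact Nat.eq_one_of_dvd_coprimes hK.cop h10 h9
      have h9 : y = y' := by
        have := congrArg (fun z => y' * z) h8
        simpa using this
      subst h9
      have h10 : k = k' := mul_left_cancel h4
      subst h10
      rfl
    · rintro ⟨⟨a, ha⟩, ⟨b, hb⟩⟩
      obtain ⟨y, hy, k, hk, hyk⟩ := hK.mul (a⁻¹ * b) (mul_comm_of_inv ha hb)
      have h3 : a * (y * k) = b := by rw [← hyk]; group
      refine ⟨⟨⟨y, hy⟩, ⟨k, hk⟩, ⟨a, ha, ?_⟩⟩, ?_⟩
      · show (a * k) * (a * k) = 1
        rw [← sq_eq ha hy (hK.comm _ hk), h3]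
        exact hb.1
      · simp only [h3]

omit [Finite G] in
/-- pairs of conjugates of `z` with product `h k` -/
theorem card_pairs {z : G} (hzz : z * z = 1) (hz : ∀ a ∈ Inv h, IsConj z a) {k : G} (hk : h * k = k * h)
    (hcop : (orderOf h).Coprime (orderOf k)) :
    Nat.card {p : G × G // IsConj z p.1 ∧ IsConj z p.2 ∧ p.1 * p.2 = h * k} = num h k := by
  have hsq : ∀ {a : G}, IsConj z a → a * a = 1 := by
    intro a ha
    obtain ⟨c, rfl⟩ := isConj_iff.1 ha
    calc c * z * c⁻¹ * (c * z * c⁻¹) = c * (z * z) * c⁻¹ := by group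
      _ = 1 := by rw [hzz]; group
  obtain ⟨n, hn1, hn2⟩ := Nat.chineseRemainder hcop 1 0
  have hcom : Commute h k := hk
  have hn : (h * k) ^ n = h := by
    rw [hcom.mul_pow, pow_eq_pow_iff_modEq.2 hn1, pow_eq_pow_iff_modEq.2 hn2, pow_one, pow_zero, mul_one]
  refine Nat.card_congr (Equiv.ofBijective (fun q => (⟨q.1.1, ?_⟩ : {a : G // a ∈ Inv h ∧ (a * k) * (a * k) = 1})) ?_)
  · obtain ⟨⟨a, b⟩, ha, hb, hab⟩ := q
    change a * b = h * k at hab
    have ha2 : a * a = 1 := hsq ha
    have hb2 : b * b = 1 := hsq hb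
    have hai : a⁻¹ = a := inv_eq_of_mul_eq_one_left ha2
    have hbi : b⁻¹ = b := inv_eq_of_mul_eq_one_left hb2
    have h1 : a * (h * k) * a⁻¹ = (h * k)⁻¹ := by
      rw [← hab, mul_inv_rev]
      calc a * (a * b) * a⁻¹ = (a * a) * b * a⁻¹ := by group
        _ = b⁻¹ * a⁻¹ := by rw [ha2, hbi, one_mul]
    have h2 : a * h * a⁻¹ = h⁻¹ := by
      calc a * h * a⁻¹ = a * (h * k) ^ n * a⁻¹ := by rw [hn]
        _ = (a * (h * k) * a⁻¹) ^ n := (conj_pow ..).symm
        _ = ((h * k) ^ n)⁻¹ := by rw [h1, inv_pow]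
        _ = h⁻¹ := by rw [hn]
    have h3 : a * k * a⁻¹ = k⁻¹ := by
      have h4 : (a * h * a⁻¹) * (a * k * a⁻¹) = a * (h * k) * a⁻¹ := by group
      rw [h1, h2] at h4
      calc a * k * a⁻¹ = h * (h⁻¹ * (a * k * a⁻¹)) := by group
        _ = h * (h * k)⁻¹ := by rw [h4]
        _ = h * (k * h)⁻¹ := by rw [hk]
        _ = k⁻¹ := by group
    refine ⟨⟨ha2, h2⟩, ?_⟩
    change (a * k) * (a * k) = 1
    calc (a * k) * (a * k) = (a * k * a) * k := by group
      _ = (a * k * a⁻¹) * k := by rw [hai]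
      _ = 1 := by rw [h3]; group
  · constructor
    · rintro ⟨⟨a, b⟩, ha, hb, hab⟩ ⟨⟨a', b'⟩, ha', hb', hab'⟩ heq
      have h1 : a = a' := congrArg Subtype.val heq
      subst h1
      change a * b = h * k at hab
      change a * b' = h * k at hab'
      have h2 : b = b' := mul_left_cancel (hab.trans hab'.symm)
      subst h2
      rfl
    · rintro ⟨a, ha, hak⟩
      have h1 : (a * (h * k)) * (a * (h * k)) = 1 := by
        rw [sq_eq ha (mem_zpowers h) hk]
        exact hak
      have h2 : a * (h * k) ∈ Inv h := by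
        refine mul_mem_inv ha ?_ h1
        calc h * (h * k) = h * (k * h) := by rw [hk]
          _ = h * k * h := by group
      refine ⟨⟨(a, a * (h * k)), hz a ha, hz _ h2, ?_⟩, rfl⟩
      change a * (a * (h * k)) = h * k
      rw [← mul_assoc, ha.1, one_mul]

/-- `x` permutes the elements inverting `h` and fixes `ℓ` of them -/
theorem not_dvd_card_inv {p : ℕ} [hp : Fact p.Prime] (hl : l.Prime) (hp2 : p ≠ 2) (hpl : p ≠ l) {x t : G} (hx : orderOf x = p)
    (hh : orderOf h = l) (hxh : h * x = x * h) (hcard : Nat.card (centralizer ({x * h} : Set G)) ∣ p * l)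
    (ht : t ∈ Inv h) (htx : t * x = x * t) : ¬ p ∣ Nat.card (Inv h) := by
  classical
  have hcx : Commute h x := hxh
  have hctx : Commute t x := htx
  -- the centralizer of `x h`
  have hco : (orderOf x).Coprime (orderOf h) := by
    rw [hx, hh]
    exact (Nat.coprime_primes hp.out hl).2 hpl
  have hord : orderOf (x * h) = p * l := by
    rw [hcx.symm.orderOf_mul_eq_mul_orderOf_of_coprime hco, hx, hh]
  have hle : zpowers (x * h) ≤ centralizer ({x * h} : Set G) := by
    rw [zpowers_le]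
    exact mem_centralizer_singleton_iff.2 rfl
  have hceq : zpowers (x * h) = centralizer ({x * h} : Set G) := by
    refine eq_of_le_of_card_ge hle ?_
    rw [Nat.card_zpowers, hord]
    exact Nat.le_of_dvd (Nat.mul_pos hp.out.pos hl.pos) hcard
  -- the permutation
  have hmem : ∀ a ∈ Inv h, x * a * x⁻¹ ∈ Inv h := by
    rintro a ⟨h1, h2⟩
    constructor
    · calc x * a * x⁻¹ * (x * a * x⁻¹) = x * (a * a) * x⁻¹ := by group
        _ = 1 := by rw [h1]; group
    · calc x * a * x⁻¹ * h * (x * a * x⁻¹)⁻¹ = x * a * (x⁻¹ * h * x) * a⁻¹ * x⁻¹ := by group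
        _ = x * (a * h * a⁻¹) * x⁻¹ := by
            have : x⁻¹ * h * x = h := by rw [mul_assoc, hxh]; group
            rw [this]; group
        _ = h⁻¹ := by
            rw [h2]
            have : x * h⁻¹ = h⁻¹ * x := (hcx.inv_left).eq.symm
            rw [this]; group
  let f : Function.End (Inv h) := fun a => ⟨x * a * x⁻¹, hmem _ a.2⟩
  have hfn : ∀ (n : ℕ) (a : Inv h), (((f ^ n : Function.End (Inv h)) a : Inv h) : G) = x ^ n * a * (x ^ n)⁻¹ := by
    intro n
    induction n with
    | zero =>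
      intro a
      simp only [pow_zero, one_mul, inv_one, mul_one]
      rfl
    | succ n ih =>
      intro a
      rw [pow_succ]
      change (((f ^ n : Function.End (Inv h)) (f a) : Inv h) : G) = _
      rw [ih]
      change x ^ n * (x * a * x⁻¹) * (x ^ n)⁻¹ = _
      rw [pow_succ]
      group
  have hf : f ^ p ^ 1 = 1 := by
    funext a
    apply Subtype.ext
    rw [hfn, pow_one, ← hx, pow_orderOf_eq_one]
    simp only [one_mul, inv_one, mul_one]
    rfl
  have := Fintype.ofFinite (Inv h)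
  have hmod := Equiv.Perm.card_fixedPoints_modEq (p := p) (n := 1) hf
  -- the fixed points
  have hfix : ∀ a : Inv h, a ∈ Function.fixedPoints f ↔ x * (a : G) = a * x := by
    intro a
    constructor
    · intro hfa
      have h1 : x * (a : G) * x⁻¹ = a := congrArg Subtype.val hfa
      calc x * (a : G) = x * a * x⁻¹ * x := by group
        _ = a * x := by rw [h1]
    · intro h1
      apply Subtype.ext
      change x * (a : G) * x⁻¹ = a
      rw [h1]; group
  have hty : ∀ y ∈ zpowers h, t * y ∈ Inv h ∧ x * (t * y) = t * y * x := by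
    rintro _ ⟨n, rfl⟩
    have hcn : Commute h (h ^ n) := (Commute.refl h).zpow_right n
    refine ⟨mul_mem_inv ht hcn.eq ?_, ?_⟩
    · have h1 := inv_zpow' ht n
      calc t * h ^ n * (t * h ^ n) = (t * h ^ n * t) * h ^ n := by group
        _ = 1 := by rw [h1]; group
    · have h2 : Commute x (t * h ^ n) := hctx.symm.mul_right (hcx.symm.zpow_right n)
      exact h2.eq
  have hcardfix : Fintype.card (Function.fixedPoints f) = l := by
    rw [← Nat.card_eq_fintype_card, ← hh, ← Nat.card_zpowers h]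
    symm
    refine Nat.card_congr (Equiv.ofBijective (fun y => (⟨⟨t * (y : G), (hty y y.2).1⟩,
      (hfix _).2 (hty y y.2).2⟩ : Function.fixedPoints f)) ⟨?_, ?_⟩)
    · intro y y' heq
      have h1 : t * (y : G) = t * (y' : G) := congrArg (fun z : Function.fixedPoints f => ((z : Inv h) : G)) heq
      exact Subtype.ext (mul_left_cancel h1)
    · rintro ⟨a, ha⟩
      rw [hfix] at ha
      have h1 : Commute h (t⁻¹ * (a : G)) := mul_comm_of_inv ht a.2
      have h2 : Commute x (t⁻¹ * (a : G)) := (hctx.symm.inv_right).mul_right (show Commute x (a : G) from ha)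
      have h3 : t⁻¹ * (a : G) ∈ centralizer ({x * h} : Set G) := by
        rw [mem_centralizer_singleton_iff]
        exact (h2.mul_left h1).eq.symm
      rw [← hceq] at h3
      obtain ⟨n, hn⟩ := h3
      change (x * h) ^ n = t⁻¹ * (a : G) at hn
      rw [hcx.symm.mul_zpow] at hn
      have h4 : (a : G) = x ^ n * (t * h ^ n) := by
        calc (a : G) = t * (t⁻¹ * a) := by group
          _ = (t * x ^ n) * h ^ n := by rw [← hn]; group
          _ = _ := by rw [(hctx.zpow_right n).eq]; group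
      have h5 : (t * h ^ n) * (t * h ^ n) = 1 := (hty _ ⟨n, rfl⟩).1.1
      have h6 : Commute (t * h ^ n) (x ^ n) := by
        have h7 : Commute x (t * h ^ n) := (hty _ ⟨n, rfl⟩).2
        exact h7.symm.zpow_right n
      have h7 : x ^ n * x ^ n = 1 := by
        have h8 : (a : G) * a = 1 := a.2.1
        rw [h4] at h8
        calc x ^ n * x ^ n = x ^ n * x ^ n * ((t * h ^ n) * (t * h ^ n)) := by rw [h5, mul_one]
          _ = x ^ n * (x ^ n * (t * h ^ n)) * (t * h ^ n) := by group
          _ = x ^ n * ((t * h ^ n) * x ^ n) * (t * h ^ n) := by rw [h6.eq]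
          _ = x ^ n * (t * h ^ n) * (x ^ n * (t * h ^ n)) := by group
          _ = 1 := h8
      have h8 : x ^ n = 1 := by
        rw [← zpow_add, ← two_mul, ← orderOf_dvd_iff_zpow_eq_one, hx] at h7
        rw [← orderOf_dvd_iff_zpow_eq_one, hx]
        have h9 : IsCoprime (p : ℤ) 2 := by
          rw [show (2 : ℤ) = ((2 : ℕ) : ℤ) from rfl, Nat.isCoprime_iff_coprime]
          exact (Nat.coprime_primes hp.out Nat.prime_two).2 hp2
        exact h9.dvd_of_dvd_mul_left h7
      refine ⟨⟨h ^ n, n, rfl⟩, Subtype.ext (Subtype.ext ?_)⟩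
      change t * h ^ n = a
      rw [h4, h8, one_mul]
  rw [hcardfix, ← Nat.card_eq_fintype_card] at hmod
  intro hd
  have h9 : p ∣ l := (hmod.dvd_iff dvd_rfl).1 hd
  exact hpl ((Nat.prime_dvd_prime_iff_eq hp.out hl).1 h9)

end

end Cfsg.Agent.H810.Sect
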